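import Cfsg.Agent.Suzuki.Gen
import Cfsg.Agent.Suzuki.LieIso

/-!
# Fixity two actions of the Suzuki groups
-/

set_option autoImplicit false

namespace Cfsg.Agent.Suz

open Matrix MulAction

/-- three fixed points cannot be distinct -/
theorem three_fixed {G Ω : Type*} [Group G] [MulAction G Ω] [Finite Ω]
    {g : G} (h2 : Nat.card (fixedBy Ω g) ≤ 2) {a b c : Ω} (ha : g • a = a) (hb : g • b = b)
    (hc : g • c = c) : a = b ∨ b = c ∨ a = c := by
  classical
  by_contra h
  push Not at h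
  obtain ⟨h1, h3, h4⟩ := h
  have hsub : ({a, b, c} : Set Ω) ⊆ fixedBy Ω g := by
    rintro x (rfl | rfl | rfl)
    · exact ha
    · exact hb
    · exact hc
  have h5 := Set.ncard_le_ncard hsub (Set.toFinite _)
  have h6 : ({a, b, c} : Set Ω).ncard = 3 := by
    rw [Set.ncard_eq_three]
    exact ⟨a, b, c, h1, h4, h3, rfl⟩
  rw [h6] at h5
  have : (fixedBy Ω g).ncard = Nat.card (fixedBy Ω g) := rfl
  omega

variable {F : Type*} [Field F] [Fintype F] [CharP F 2] {m : ℕ}

local notation "ϑ" => th F m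

section

variable (hm : 1 ≤ m) (hF : Fintype.card F = 2 ^ (2 * m + 1))
  {Ω : Type*} [Finite Ω] [MulAction (Cfsg.Sz F m) Ω]

include hm hF

/-- Centralisers have small orbits. -/
theorem cyc_le_stab (hfix : ∀ g : Cfsg.Sz F m, g ≠ 1 → Nat.card (fixedBy Ω g) ≤ 2) {α : Ω}
    {K : Subgroup (Cfsg.Sz F m)} (hK : IsCyc hF K) {x : Cfsg.Sz F m} (hx : x ∈ K) (hx1 : x ≠ 1)
    (hxα : x • α = α) : K ≤ stabilizer (Cfsg.Sz F m) α := by
  have hcomm := (IsCyc.selfCent hm hF hK)
  intro y hy
  -- y² fixes α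
  have h1 : ∀ z ∈ K, x • z • α = z • α := by
    intro z hz
    rw [← mul_smul, hcomm.comm hx hz, mul_smul, hxα]
  have h2 : y • α = α ∨ (y * y) • α = α := by
    rcases three_fixed (hfix x hx1) hxα (h1 y hy) (h1 (y * y) (K.mul_mem hy hy)) with h | h | h
    · left; exact h.symm
    · left
      rw [mul_smul] at h
      exact (smul_left_cancel y h).symm
    · right; exact h.symm
  rcases h2 with h2 | h2
  · exact h2
  · have hodd : ¬ 2 ∣ orderOf y := by
      intro h
      apply IsCyc.odd hm hF hK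
      apply h.trans
      rw [← Subgroup.orderOf_mk y hy]
      exact orderOf_dvd_natCard _
    have hcop : (orderOf y).Coprime 2 :=
      ((Nat.Prime.coprime_iff_not_dvd Nat.prime_two).2 hodd).symm
    obtain ⟨k, hk⟩ := exists_pow_eq_self_of_coprime hcop.symm
    rw [← hk]
    apply Subgroup.pow_mem
    rw [pow_two]
    exact h2

/-- The odd order case -/
theorem fixity_odd (hfix : ∀ g : Cfsg.Sz F m, g ≠ 1 → Nat.card (fixedBy Ω g) ≤ 2) {α : Ω}
    (hne : ∃ g ∈ stabilizer (Cfsg.Sz F m) α, g ≠ 1)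
    (hodd : ¬ 2 ∣ Nat.card (stabilizer (Cfsg.Sz F m) α)) :
    Nat.card (stabilizer (Cfsg.Sz F m) α) = 2 ^ (2 * m + 1) - 1 := by
  set M := stabilizer (Cfsg.Sz F m) α with hM
  have hoddel : ∀ g ∈ M, ¬ 2 ∣ orderOf g := by
    intro g hg h
    apply hodd
    apply h.trans
    rw [← Subgroup.orderOf_mk g hg]
    exact orderOf_dvd_natCard _
  -- every nontrivial element lies in a conjugate of H inside M
  have hcomp : ∀ g ∈ M, g ≠ 1 → ∃ k, g ∈ cj k (HH hF) ∧ cj k (HH hF) ≤ M := by
    intro g hg hg1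
    obtain ⟨K, hK, hgK, -⟩ := exists_comp hm hF hg1
    have hKc : IsCyc hF K := by
      rcases hK with ⟨k, rfl⟩ | h
      · exfalso
        have h1 : IsPGroup 2 (cj k (TT hF)) := (isPGroup_TT hF).map _
        obtain ⟨n, hn⟩ := IsPGroup.iff_orderOf.1 h1 ⟨g, hgK⟩
        rw [Subgroup.orderOf_mk] at hn
        rcases n with _ | n
        · rw [pow_zero] at hn
          exact hg1 (orderOf_eq_one_iff.1 hn)
        · exact hoddel g hg (by rw [hn]; exact dvd_pow_self 2 (Nat.succ_ne_zero n))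
      · exact h
    have hKM := cyc_le_stab hm hF hfix hKc hgK hg1 hg
    rcases hKc with ⟨k, rfl⟩ | hKt
    · exact ⟨k, hgK, hKM⟩
    · exfalso
      -- the normaliser has orbits of length 4 fixed by g
      have hKc : IsCyc hF K := Or.inr hKt
      set N := Subgroup.normalizer (K : Set (Cfsg.Sz F m)) with hN
      have h4 := (torus_card hm hF hKt).2
      have h5 : ∀ n ∈ N, g • n • α = n • α := by
        intro n hn
        have h6 := (Subgroup.mem_normalizer_iff.1 (Subgroup.inv_mem _ hn) g).1 hgK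
        rw [inv_inv] at h6
        have h7 : (n⁻¹ * g * n) • α = α := hKM h6
        rw [mul_smul, mul_smul, inv_smul_eq_iff] at h7
        exact h7
      have h6 : ∀ n ∈ N, n ∈ M → n ∈ K := fun n hn hnM =>
        IsCyc.mem_of_odd hm hF hKc hn (hoddel n hnM)
      have h7 : ∀ n₁ ∈ N, ∀ n₂ ∈ N, n₁ ∈ K ∨ n₂ ∈ K ∨ n₁⁻¹ * n₂ ∈ K := by
        intro n₁ hn₁ n₂ hn₂
        rcases three_fixed (hfix g hg1) hg (h5 n₁ hn₁) (h5 n₂ hn₂) with h | h | h
        · left; exact h6 n₁ hn₁ h.symm
        · right; right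
          apply h6 _ (N.mul_mem (N.inv_mem hn₁) hn₂)
          change (n₁⁻¹ * n₂) • α = α
          rw [mul_smul, ← h, inv_smul_smul]
        · right; left; exact h6 n₂ hn₂ h.symm
      -- so the index of K in N is at most 2
      have h8 : (K.subgroupOf N).index ≤ 2 := by
        by_contra hcon
        push Not at hcon
        have hnt : ∃ n : N, n ∉ K.subgroupOf N := by
          by_contra hno
          push Not at hno
          have : K.subgroupOf N = ⊤ := eq_top_iff.2 fun x _ => hno x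
          rw [this, Subgroup.index_top] at hcon
          omega
        obtain ⟨n, hn⟩ := hnt
        have h9 : (K.subgroupOf N).index = 2 := by
          rw [Subgroup.index_eq_two_iff]
          refine ⟨n⁻¹, fun b => ?_⟩
          rw [Subgroup.mem_subgroupOf, Subgroup.mem_subgroupOf]
          rw [Subgroup.mem_subgroupOf] at hn
          by_cases hb : (b : Cfsg.Sz F m) ∈ K
          · right
            refine ⟨hb, fun h => hn ?_⟩
            have := K.mul_mem (K.inv_mem hb) h
            rw [Subgroup.coe_mul, inv_mul_cancel_left, Subgroup.coe_inv] at this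
            exact (K.inv_mem_iff).1 this
          · left
            refine ⟨?_, hb⟩
            have hb' : (b : Cfsg.Sz F m)⁻¹ ∉ K := fun h => hb (K.inv_mem_iff.1 h)
            have hn' : (n : Cfsg.Sz F m)⁻¹ ∉ K := fun h => hn (K.inv_mem_iff.1 h)
            rcases h7 _ (N.inv_mem b.2) _ (N.inv_mem n.2) with h | h | h
            · exact absurd h hb'
            · exact absurd h hn'
            · rw [inv_inv] at h
              exact h
        omega
      have h9 := Subgroup.card_mul_index (K.subgroupOf N)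
      rw [Nat.card_congr (Subgroup.subgroupOfEquivOfLe (Subgroup.le_normalizer (H := K))).toEquiv,
        h4, mul_comm 4] at h9
      have h10 := Nat.eq_of_mul_eq_mul_left Nat.card_pos h9
      omega
  -- counting in M
  have hcount : ∀ k, cj k (HH hF) ≤ M →
      Nat.card {g : M // g ≠ 1 ∧ ∃ c : M, c * g * c⁻¹ ∈ (cj k (HH hF)).subgroupOf M} =
        ((cj k (HH hF)).subgroupOf M).index * (2 ^ (2 * m + 1) - 1 - 1) ∧
      (2 ^ (2 * m + 1) - 1) * ((cj k (HH hF)).subgroupOf M).index = Nat.card M := by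
    intro k hk
    have hKc : IsCyc hF (cj k (HH hF)) := Or.inl ⟨k, rfl⟩
    set K := cj k (HH hF) with hKdef
    have hcard : Nat.card (K.subgroupOf M) = 2 ^ (2 * m + 1) - 1 := by
      rw [Nat.card_congr (Subgroup.subgroupOfEquivOfLe hk).toEquiv, hKdef, card_cj, card_HH]
    have hmem : ∀ g u : M, u ∈ K.subgroupOf M → u ≠ 1 → g * u * g⁻¹ ∈ K.subgroupOf M →
        g ∈ K.subgroupOf M := by
      intro g u hu hu1 hgu
      rw [Subgroup.mem_subgroupOf] at hu hgu ⊢
      have h1 : (g : Cfsg.Sz F m) ∈ Subgroup.normalizer (K : Set (Cfsg.Sz F m)) :=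
        (IsCyc.selfCent hm hF hKc).mem_normalizer hu (fun h => hu1 (Subtype.ext h)) hgu
      exact IsCyc.mem_of_odd hm hF hKc h1 (hoddel g g.2)
    have hN : Subgroup.normalizer (K.subgroupOf M : Set M) = K.subgroupOf M := by
      apply le_antisymm _ Subgroup.le_normalizer
      intro g hg
      have hnt : Nontrivial (K.subgroupOf M) := by
        apply Finite.one_lt_card_iff_nontrivial.1
        rw [hcard, ← hF]
        have := eight_le hm hF
        omega
      obtain ⟨u, hu⟩ := exists_ne (1 : K.subgroupOf M)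
      exact hmem g u u.2 (fun h => hu (Subtype.ext h))
        ((Subgroup.mem_normalizer_iff.1 hg u).1 u.2)
    constructor
    · rw [SC.card_conj (U := K.subgroupOf M)
        (fun g u hu hu1 hgu => Subgroup.le_normalizer (hmem g u hu hu1 hgu)), hN, hcard]
    · rw [← hcard]
      exact Subgroup.card_mul_index _
  obtain ⟨g₀, hg₀, hg₀1⟩ := hne
  obtain ⟨k, -, hkM⟩ := hcomp g₀ hg₀ hg₀1
  obtain ⟨hc1, hc2⟩ := hcount k hkM
  have h8 := eight_le hm hF
  rw [hF] at h8
  set i := ((cj k (HH hF)).subgroupOf M).index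
  have hall : ∀ g : M, g ≠ 1 → ∃ c : M, c * g * c⁻¹ ∈ (cj k (HH hF)).subgroupOf M := by
    intro g hg1
    by_contra hno
    obtain ⟨l, hgl, hlM⟩ := hcomp g g.2 (fun h => hg1 (Subtype.ext h))
    obtain ⟨hd1, hd2⟩ := hcount l hlM
    set j := ((cj l (HH hF)).subgroupOf M).index
    have hij : i = j := by
      have := hc2.trans hd2.symm
      exact Nat.eq_of_mul_eq_mul_left (by omega) this
    -- disjointness
    have hdis : Disjoint {g : M | g ≠ 1 ∧ ∃ c : M, c * g * c⁻¹ ∈ (cj k (HH hF)).subgroupOf M}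
        {g : M | g ≠ 1 ∧ ∃ c : M, c * g * c⁻¹ ∈ (cj l (HH hF)).subgroupOf M} := by
      rw [Set.disjoint_left]
      rintro x ⟨hx1, c, hc⟩ ⟨-, d, hd⟩
      apply hno
      rw [Subgroup.mem_subgroupOf] at hc hd
      refine ⟨c * d⁻¹, ?_⟩
      rw [Subgroup.mem_subgroupOf]
      have hx1' : (x : Cfsg.Sz F m) ≠ 1 := fun h => hx1 (Subtype.ext h)
      have hcl : IsCyc hF (cj l (HH hF)) := Or.inl ⟨l, rfl⟩
      have hck : IsCyc hF (cj k (HH hF)) := Or.inl ⟨k, rfl⟩
      have e1 : cj (d⁻¹ : Cfsg.Sz F m) (cj l (HH hF)) = cj (c⁻¹ : Cfsg.Sz F m) (cj k (HH hF)) := by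
        apply ((IsCyc.selfCent hm hF hcl).map _).eq_of_mem ((IsCyc.selfCent hm hF hck).map _) hx1'
        · rw [mem_cj, inv_inv]; exact hd
        · rw [mem_cj, inv_inv]; exact hc
      have e2 : (d⁻¹ * g * d : Cfsg.Sz F m) ∈ cj (d⁻¹ : Cfsg.Sz F m) (cj l (HH hF)) := by
        rw [mem_cj, inv_inv]
        have : (d : Cfsg.Sz F m) * (d⁻¹ * g * d) * (d : Cfsg.Sz F m)⁻¹ = g := by
          simp [mul_assoc]
        rw [this]; exact hgl
      rw [e1, mem_cj, inv_inv] at e2
      have e3 : ((c * d⁻¹ * g * (c * d⁻¹)⁻¹ : M) : Cfsg.Sz F m) =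
          (c : Cfsg.Sz F m) * ((d : Cfsg.Sz F m)⁻¹ * g * d) * (c : Cfsg.Sz F m)⁻¹ := by
        simp [mul_assoc]
      rw [e3]
      exact e2
    have h1 := Set.ncard_union_eq hdis (Set.toFinite _) (Set.toFinite _)
    have h2 : ({g : M | g ≠ 1 ∧ ∃ c : M, c * g * c⁻¹ ∈ (cj k (HH hF)).subgroupOf M} ∪
        {g : M | g ≠ 1 ∧ ∃ c : M, c * g * c⁻¹ ∈ (cj l (HH hF)).subgroupOf M}).ncard ≤
        Nat.card M := by
      rw [← Set.ncard_univ]
      exact Set.ncard_le_ncard (Set.subset_univ _) (Set.toFinite _)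
    have h3 : ({g : M | g ≠ 1 ∧ ∃ c : M, c * g * c⁻¹ ∈ (cj k (HH hF)).subgroupOf M}).ncard =
      i * (2 ^ (2 * m + 1) - 1 - 1) := hc1
    have h4 : ({g : M | g ≠ 1 ∧ ∃ c : M, c * g * c⁻¹ ∈ (cj l (HH hF)).subgroupOf M}).ncard =
      j * (2 ^ (2 * m + 1) - 1 - 1) := hd1
    rw [h1, h3, h4, ← hij, ← hc2] at h2
    have hipos : 0 < i := by
      rcases Nat.eq_zero_or_pos i with h0 | h0
      · rw [h0, mul_zero] at hc2
        have : 0 < Nat.card M := Nat.card_pos
        omega
      · exact h0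
    have h5 : i * (2 * (2 ^ (2 * m + 1) - 1 - 1)) ≤ i * (2 ^ (2 * m + 1) - 1) := by
      calc _ = i * (2 ^ (2 * m + 1) - 1 - 1) + i * (2 ^ (2 * m + 1) - 1 - 1) := by ring
        _ ≤ _ := by rw [mul_comm i (2 ^ (2 * m + 1) - 1)]; exact h2
    have h6 := Nat.le_of_mul_le_mul_left h5 hipos
    omega
  have hfull : Nat.card {g : M // g ≠ 1 ∧ ∃ c : M, c * g * c⁻¹ ∈ (cj k (HH hF)).subgroupOf M} =
      Nat.card M - 1 := by
    have e : {g : M // g ≠ 1 ∧ ∃ c : M, c * g * c⁻¹ ∈ (cj k (HH hF)).subgroupOf M} ≃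
        {g : M // g ≠ 1} := Equiv.subtypeEquivRight fun g =>
      ⟨fun h => h.1, fun h => ⟨h, hall g h⟩⟩
    rw [Nat.card_congr e]
    classical
    have : Fintype M := Fintype.ofFinite _
    rw [Nat.card_eq_fintype_card, Nat.card_eq_fintype_card, Fintype.card_subtype_compl,
      Fintype.card_subtype_eq]
  rw [hc1, ← hc2] at hfull
  have hi1 : i = 1 := by
    obtain ⟨r, hr⟩ : ∃ r, 2 ^ (2 * m + 1) - 1 = r + 1 := ⟨2 ^ (2 * m + 1) - 2, by omega⟩
    rw [hr, Nat.add_sub_cancel] at hfull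
    have h1 : (r + 1) * i = i * r + i := by ring
    rw [h1] at hfull
    have hipos : 0 < i := by
      rcases Nat.eq_zero_or_pos i with h0 | h0
      · rw [h0, mul_zero] at hc2
        have : 0 < Nat.card M := Nat.card_pos
        omega
      · exact h0
    omega
  rw [← hc2, hi1, mul_one]

omit [Field F] [Fintype F] [CharP F 2] hm hF in
theorem arith_fix {q : ℕ} (hq : 8 ≤ q) (h4 : 4 ∣ q) {d : ℕ} (hd : 2 * d = q ^ 2 + 2)
    (hdvd : d ∣ q ^ 2 * (q ^ 2 + 1) * (q - 1)) : False := by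
  have hcop1 : d.Coprime (q ^ 2 + 1) := by
    rw [Nat.coprime_iff_gcd_eq_one, ← Nat.dvd_one]
    have h1 : Nat.gcd d (q ^ 2 + 1) ∣ 2 * d := (Nat.gcd_dvd_left _ _).mul_left 2
    have h2 : Nat.gcd d (q ^ 2 + 1) ∣ q ^ 2 + 1 := Nat.gcd_dvd_right _ _
    rw [hd, show q ^ 2 + 2 = q ^ 2 + 1 + 1 by ring] at h1
    exact (Nat.dvd_add_right h2).1 h1
  have hodd : ¬ 2 ∣ d := by
    intro h2
    obtain ⟨e, rfl⟩ := h2
    obtain ⟨f, rfl⟩ := h4
    have : 2 * (2 * e) = 4 * (4 * (f * f)) + 2 := by rw [hd]; ring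
    omega
  have hcop2 : d.Coprime (q ^ 2) := by
    rw [Nat.coprime_iff_gcd_eq_one, ← Nat.dvd_one]
    have h1 : Nat.gcd d (q ^ 2) ∣ 2 * d := (Nat.gcd_dvd_left _ _).mul_left 2
    have h2 : Nat.gcd d (q ^ 2) ∣ q ^ 2 := Nat.gcd_dvd_right _ _
    rw [hd] at h1
    have h3 := (Nat.dvd_add_right h2).1 h1
    rcases (Nat.dvd_prime Nat.prime_two).1 h3 with h4 | h4
    · rw [h4]
    · exfalso; exact hodd (h4 ▸ Nat.gcd_dvd_left _ _)
  rw [mul_assoc] at hdvd
  have h1 := hcop2.dvd_of_dvd_mul_left hdvd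
  have h2 := hcop1.dvd_of_dvd_mul_left h1
  have h3 := Nat.le_of_dvd (by omega) h2
  have h5 : 8 * q ≤ q ^ 2 := by rw [pow_two]; exact Nat.mul_le_mul_right q hq
  omega

/-- The even order case -/
theorem fixity_even [Nonempty Ω] [IsPretransitive (Cfsg.Sz F m) Ω]
    (hfix : ∀ g : Cfsg.Sz F m, g ≠ 1 → Nat.card (fixedBy Ω g) ≤ 2)
    (hex : ∃ g : Cfsg.Sz F m, g ≠ 1 ∧ Nat.card (fixedBy Ω g) = 2) {α : Ω} {b : F} (hb : b ≠ 0)
    (hα : tS hF 0 b • α = α) :
    stabilizer (Cfsg.Sz F m) α = stabilizer (Cfsg.Sz F m) (oinf F m) := by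
  set M := stabilizer (Cfsg.Sz F m) α with hM
  have hb1 : tS hF 0 b ≠ 1 := fun h => hb ((tS_eq_one_iff hF).1 h).2
  have hcent : ∀ t ∈ TT hF, tS hF 0 b • t • α = t • α := by
    intro t ht
    obtain ⟨x, y, rfl⟩ := (mem_TT hF).1 ht
    rw [← mul_smul, tS_mul, map_zero, zero_mul, add_zero, zero_add, add_comm b y]
    have : tS hF x (y + b) = tS hF x y * tS hF 0 b := by rw [tS_mul]; simp
    rw [this, mul_smul, hα]
  have htwo : ∀ x ∈ TT hF, ∀ y ∈ TT hF, x ∈ M ∨ y ∈ M ∨ x⁻¹ * y ∈ M := by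
    intro x hx y hy
    rcases three_fixed (hfix _ hb1) hα (hcent x hx) (hcent y hy) with h | h | h
    · left; exact h.symm
    · right; right
      change (x⁻¹ * y) • α = α
      rw [mul_smul, ← h, inv_smul_smul]
    · right; left; exact h.symm
  have hsq : ∀ x ∈ TT hF, x * x ∈ M := by
    intro x hx
    rcases htwo x⁻¹ ((TT hF).inv_mem hx) x hx with h | h | h
    · have := M.inv_mem h
      rw [inv_inv] at this
      exact M.mul_mem this this
    · exact M.mul_mem h h
    · rwa [inv_inv] at h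
  have hZ : ∀ c, tS hF 0 c ∈ M := by
    intro c
    by_cases hc : c = 0
    · rw [hc, tS_zero]; exact M.one_mem
    · obtain ⟨a, ha⟩ := exists_mul_theta (m := m) hF (Units.mk0 c hc)
      have := hsq (tS hF a 0) (tS_mem_TT hF _ _)
      rw [tS_sq, mul_comm, ha, Units.val_mk0] at this
      exact this
  have hZn : ∀ g ∈ stabilizer (Cfsg.Sz F m) (oinf F m), g⁻¹ * tS hF 0 b * g ∈ M := by
    intro g hg
    have hg' : g⁻¹ ∈ stabilizer (Cfsg.Sz F m) (oinf F m) := Subgroup.inv_mem _ hg
    obtain ⟨x, y, μ, h⟩ := fix_inf hF hm hg'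
    have e : g⁻¹ * tS hF 0 b * g = tS hF x y * (hS hF μ * tS hF 0 b) * (hS hF μ)⁻¹ *
        (tS hF x y)⁻¹ := by
      have h' : g = (hS hF μ)⁻¹ * (tS hF x y)⁻¹ := by
        rw [← _root_.mul_inv_rev, ← h, inv_inv]
      rw [h, h']
      simp only [mul_assoc]
    rw [e, hS_mul_tS, mul_assoc (tS hF x y) _ (hS hF μ)⁻¹, mul_inv_cancel_right, mul_zero, conj_tS, map_zero, mul_zero, zero_mul,
      add_zero, add_zero]
    exact hZ _
  by_cases hcase : M ≤ stabilizer (Cfsg.Sz F m) (oinf F m)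
  · -- first case
    apply le_antisymm hcase
    have hfx : ∀ g ∈ stabilizer (Cfsg.Sz F m) (oinf F m), tS hF 0 b • g • α = g • α := by
      intro g hg
      have h1 : (g⁻¹ * tS hF 0 b * g) • α = α := hZn g hg
      rw [mul_smul, mul_smul, inv_smul_eq_iff] at h1
      exact h1
    have hsq' : ∀ g ∈ stabilizer (Cfsg.Sz F m) (oinf F m), g * g ∈ M := by
      intro g hg
      rcases three_fixed (hfix _ hb1) hα (hfx g hg) (hfx (g * g) (Subgroup.mul_mem _ hg hg))
        with h | h | h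
      · have : g ∈ M := h.symm
        exact M.mul_mem this this
      · rw [mul_smul] at h
        have : g ∈ M := (smul_left_cancel g h).symm
        exact M.mul_mem this this
      · exact h.symm
    have hoddm : ∀ g ∈ stabilizer (Cfsg.Sz F m) (oinf F m), ¬ 2 ∣ orderOf g → g ∈ M := by
      intro g hg hodd
      have hcop : (orderOf g).Coprime 2 :=
        ((Nat.Prime.coprime_iff_not_dvd Nat.prime_two).2 hodd).symm
      obtain ⟨k, hk⟩ := exists_pow_eq_self_of_coprime hcop.symm
      rw [← hk]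
      apply Subgroup.pow_mem
      rw [pow_two]
      exact hsq' g hg
    have hoddH : ∀ μ : Fˣ, ¬ 2 ∣ orderOf (hS hF μ) := by
      intro μ h
      have hc : IsCyc hF (HH hF) := Or.inl ⟨1, (cj_one _).symm⟩
      apply IsCyc.odd hm hF hc
      apply h.trans
      rw [← Subgroup.orderOf_mk (hS hF μ) (hS_mem_HH hF μ)]
      exact orderOf_dvd_natCard _
    have hHM : ∀ μ : Fˣ, hS hF μ ∈ M := fun μ => hoddm _ (hS_oinf hF μ) (hoddH μ)
    have hTM : ∀ x y : F, tS hF x y ∈ M := by
      intro x y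
      obtain ⟨μ, hμ⟩ := exists_unit_ne_one hm hF
      have h1 : tS hF x y * hS hF μ ∈ M := by
        apply hoddm
        · exact Subgroup.mul_mem _ (tS_oinf hF x y) (hS_oinf hF μ)
        · obtain ⟨z, w, hzw⟩ := exists_conj_hS hF x y hμ
          rw [hzw, ← MulAut.conj_apply, MulEquiv.orderOf_eq]
          exact hoddH μ
      have := M.mul_mem h1 (M.inv_mem (hHM μ))
      rwa [mul_inv_cancel_right] at this
    intro g hg
    obtain ⟨x, y, μ, rfl⟩ := fix_inf hF hm hg
    exact M.mul_mem (hTM x y) (hHM μ)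
  · exfalso
    -- the set of elements of T mapping zero into the orbit of infinity
    obtain ⟨g, hgM, hg⟩ := Set.not_subset.1 hcase
    have hg' : g • oinf F m ≠ oinf F m := hg
    let E : Set (F × F) := {p | ∃ k ∈ M, k • oinf F m = opt m p.1 p.2}
    obtain ⟨p₁, hp₁⟩ : ∃ p, p ∈ E := by
      rcases ov_cases (g • oinf F m) with h | ⟨z, w, h⟩
      · exact absurd h hg'
      · exact ⟨(z, w), g, hgM, h⟩
    have hEmul : ∀ t : F × F, tS hF t.1 t.2 ∈ M → ∀ p ∈ E,
        (p.1 + t.1, p.2 + t.2 + ϑ t.1 * p.1) ∈ E := by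
      rintro t ht p ⟨k, hk, hkp⟩
      exact ⟨tS hF t.1 t.2 * k, M.mul_mem ht hk, by rw [mul_smul, hkp, tS_opt]⟩
    by_cases hE : ∀ p, p ∈ E
    · -- M is transitive
      have htr : ∀ p : Cfsg.suzukiOvoid F m, ∃ k ∈ M, k • oinf F m = p := by
        intro p
        rcases ov_cases p with rfl | ⟨x, y, rfl⟩
        · exact ⟨1, M.one_mem, one_smul _ _⟩
        · exact hE (x, y)
      have hall : ∀ k : Cfsg.Sz F m, k * tS hF 0 b * k⁻¹ ∈ M := by
        intro k
        obtain ⟨l, hl, hlk⟩ := htr (k • oinf F m)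
        have h1 : (k⁻¹ * l) ∈ stabilizer (Cfsg.Sz F m) (oinf F m) := by
          change (k⁻¹ * l) • oinf F m = oinf F m
          rw [mul_smul, hlk, inv_smul_smul]
        have h2 := hZn _ h1
        have h3 : k * tS hF 0 b * k⁻¹ = l * ((k⁻¹ * l)⁻¹ * tS hF 0 b * (k⁻¹ * l)) * l⁻¹ := by
          group
        rw [h3]
        exact M.mul_mem (M.mul_mem hl h2) (M.inv_mem hl)
      have hN : (Subgroup.normalClosure ({tS hF 0 b} : Set (Cfsg.Sz F m))) = ⊤ := by
        rcases (isSimple hm hF).eq_bot_or_eq_top_of_normal _ Subgroup.normalClosure_normal with h | h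
        · exfalso
          have := Subgroup.subset_normalClosure (s := ({tS hF 0 b} : Set (Cfsg.Sz F m)))
            (Set.mem_singleton _)
          rw [h] at this
          exact hb1 (Subgroup.mem_bot.1 this)
        · exact h
      have hMtop : M = ⊤ := by
        rw [eq_top_iff, ← hN, Subgroup.normalClosure, Subgroup.closure_le]
        intro x hx
        obtain ⟨y, hy, hyx⟩ := Group.mem_conjugatesOfSet_iff.1 hx
        obtain ⟨k, rfl⟩ := isConj_iff.1 hyx
        rw [Set.mem_singleton_iff.1 hy]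
        exact hall k
      obtain ⟨h, -, hh⟩ := hex
      have hsub : ∀ ω : Ω, ω = α := by
        intro ω
        obtain ⟨k, hk⟩ := MulAction.exists_smul_eq (Cfsg.Sz F m) α ω
        have : k ∈ M := by rw [hMtop]; trivial
        rw [← hk]; exact this
      have : Nat.card (fixedBy Ω h) ≤ 1 := by
        have : Subsingleton (fixedBy Ω h) :=
          ⟨fun x y => Subtype.ext ((hsub x.1).trans (hsub y.1).symm)⟩
        exact Finite.card_le_one_iff_subsingleton.2 this
      omega
    · push Not at hE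
      obtain ⟨p₀, hp₀⟩ := hE
      -- E is a single coset
      have hcoset : ∀ p ∈ E, ∃ t : F × F, tS hF t.1 t.2 ∈ M ∧
          p = (p₁.1 + t.1, p₁.2 + t.2 + ϑ t.1 * p₁.1) := by
        intro p hp
        obtain ⟨t, ht1, ht2⟩ := exists_opt_smul (F := F) (m := m) (p := p₁) (q := p)
        refine ⟨t, ?_, by rw [ht1, ht2]⟩
        by_contra htM
        obtain ⟨s, hs1, hs2⟩ := exists_opt_smul (F := F) (m := m) (p := p₁) (q := p₀)
        have hsM : tS hF s.1 s.2 ∉ M := by
          intro hsM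
          apply hp₀
          have := hEmul s hsM p₁ hp₁
          rw [hs1, hs2] at this
          exact this
        have htM' : (tS hF t.1 t.2)⁻¹ ∉ M := fun h => htM (M.inv_mem_iff.1 h)
        have hsM' : (tS hF s.1 s.2)⁻¹ ∉ M := fun h => hsM (M.inv_mem_iff.1 h)
        rcases htwo _ ((TT hF).inv_mem (tS_mem_TT hF s.1 s.2)) _
          ((TT hF).inv_mem (tS_mem_TT hF t.1 t.2)) with h | h | h
        · exact hsM' h
        · exact htM' h
        · rw [inv_inv] at h
          apply hp₀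
          obtain ⟨k, hk, hkp⟩ := hp
          refine ⟨_, M.mul_mem h hk, ?_⟩
          have e1 : (tS hF t.1 t.2)⁻¹ • opt m p.1 p.2 = opt m p₁.1 p₁.2 := by
            rw [inv_smul_eq_iff, tS_opt, ht1, ht2]
          rw [mul_smul, mul_smul, hkp, e1, tS_opt, hs1, hs2]
      -- E has |T ∩ M| elements
      let A0 : Set (F × F) := {t | tS hF t.1 t.2 ∈ M}
      have hEA : E = (fun t : F × F => (p₁.1 + t.1, p₁.2 + t.2 + ϑ t.1 * p₁.1)) '' A0 := by
        ext p
        constructor
        · intro hp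
          obtain ⟨t, ht, rfl⟩ := hcoset p hp
          exact ⟨t, ht, rfl⟩
        · rintro ⟨t, ht, rfl⟩
          exact hEmul t ht p₁ hp₁
      have hinj : Function.Injective
          (fun t : F × F => (p₁.1 + t.1, p₁.2 + t.2 + ϑ t.1 * p₁.1)) := by
        rintro ⟨a, c⟩ ⟨a', c'⟩ h
        obtain ⟨h1, h2⟩ := Prod.ext_iff.1 h
        have h1' : a = a' := add_left_cancel h1
        subst h1'
        have h2' : c = c' := by
          have h3 : p₁.2 + c + ϑ a * p₁.1 = p₁.2 + c' + ϑ a * p₁.1 := h2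
          linear_combination h3
        rw [h2']
      have hcardE : E.ncard = A0.ncard := by
        rw [hEA, Set.ncard_image_of_injective _ hinj]
      have hcardA : A0.ncard = Nat.card (M.subgroupOf (TT hF)) := by
        apply Nat.card_congr
        refine Equiv.ofBijective (fun t => ⟨⟨tS hF t.1.1 t.1.2, tS_mem_TT hF _ _⟩, t.2⟩) ⟨?_, ?_⟩
        · intro t s h
          have h1 : tS hF t.1.1 t.1.2 = tS hF s.1.1 s.1.2 :=
            congrArg (fun x : M.subgroupOf (TT hF) => (x.1.1 : Cfsg.Sz F m)) h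
          obtain ⟨h2, h3⟩ := tS_injective hF h1
          exact Subtype.ext (Prod.ext h2 h3)
        · rintro ⟨⟨x, hx⟩, hx'⟩
          obtain ⟨a, c, rfl⟩ := (mem_TT hF).1 hx
          exact ⟨⟨(a, c), hx'⟩, rfl⟩
      have hidx : (M.subgroupOf (TT hF)).index = 2 := by
        obtain ⟨s, hs1, hs2⟩ := exists_opt_smul (F := F) (m := m) (p := p₁) (q := p₀)
        have hsM : tS hF s.1 s.2 ∉ M := by
          intro hsM
          apply hp₀
          have := hEmul s hsM p₁ hp₁
          rw [hs1, hs2] at this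
          exact this
        rw [Subgroup.index_eq_two_iff]
        refine ⟨⟨tS hF s.1 s.2, tS_mem_TT hF _ _⟩, fun x => ?_⟩
        rw [Subgroup.mem_subgroupOf, Subgroup.mem_subgroupOf]
        by_cases hx : (x : Cfsg.Sz F m) ∈ M
        · right
          refine ⟨hx, fun h => hsM ?_⟩
          have := M.mul_mem (M.inv_mem hx) h
          rwa [Subgroup.coe_mul, inv_mul_cancel_left] at this
        · left
          refine ⟨?_, hx⟩
          rcases htwo _ ((TT hF).inv_mem x.2) _ (tS_mem_TT hF s.1 s.2) with h | h | h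
          · exact absurd (M.inv_mem_iff.1 h) hx
          · exact absurd h hsM
          · rw [inv_inv] at h
            exact h
      have hcard2 := Subgroup.card_mul_index (M.subgroupOf (TT hF))
      rw [hidx, card_TT, ← hcardA, ← hcardE] at hcard2
      -- the orbit of infinity
      have horb : (orbit M (oinf F m) : Set (Cfsg.suzukiOvoid F m)) =
          insert (oinf F m) ((fun p : F × F => opt m p.1 p.2) '' E) := by
        ext p
        constructor
        · rintro ⟨⟨k, hk⟩, rfl⟩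
          rcases ov_cases (k • oinf F m) with h | ⟨z, w, h⟩
          · left; exact h
          · right; exact ⟨(z, w), ⟨k, hk, h⟩, h.symm⟩
        · rintro (rfl | ⟨p, ⟨k, hk, hkp⟩, rfl⟩)
          · exact mem_orbit_self _
          · exact ⟨⟨k, hk⟩, hkp⟩
      have hcardO : Nat.card (orbit M (oinf F m)) = E.ncard + 1 := by
        have h1 : Nat.card (orbit M (oinf F m)) =
          (orbit M (oinf F m) : Set (Cfsg.suzukiOvoid F m)).ncard := rfl
        rw [h1, horb, Set.ncard_insert_of_notMem _ (Set.toFinite _),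
          Set.ncard_image_of_injective]
        · rintro ⟨a, c⟩ ⟨a', c'⟩ h
          obtain ⟨h1, h2⟩ := opt_injective h
          exact Prod.ext h1 h2
        · rintro ⟨p, -, hp⟩
          exact oinf_ne_opt _ _ hp.symm
      have hdvd : E.ncard + 1 ∣ Nat.card (Cfsg.Sz F m) := by
        rw [← hcardO]
        have h1 : Nat.card (orbit M (oinf F m)) = (stabilizer M (oinf F m)).index :=
          (index_stabilizer M (oinf F m)).symm
        rw [h1]
        exact (Subgroup.index_dvd_card _).trans (Subgroup.card_subgroup_dvd_card M)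
      rw [card_Sz hm hF] at hdvd
      have h8 := eight_le hm hF
      rw [hF] at h8
      have h4 : 4 ∣ 2 ^ (2 * m + 1) := by
        rw [show (4 : ℕ) = 2 ^ 2 by norm_num]
        exact pow_dvd_pow 2 (by omega)
      apply arith_fix h8 h4 (d := E.ncard + 1) _ hdvd
      rw [← hcard2]
      ring

/-- The stabilisers of fixity two actions. -/
theorem fixity_two [Nonempty Ω] [IsPretransitive (Cfsg.Sz F m) Ω]
    (hfix : ∀ g : Cfsg.Sz F m, g ≠ 1 → Nat.card (fixedBy Ω g) ≤ 2)
    (hex : ∃ g : Cfsg.Sz F m, g ≠ 1 ∧ Nat.card (fixedBy Ω g) = 2) :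
    (∃ α : Ω, stabilizer (Cfsg.Sz F m) α = stabilizer (Cfsg.Sz F m) (oinf F m)) ∨
      ∀ α : Ω, Nat.card (stabilizer (Cfsg.Sz F m) α) = 2 ^ (2 * m + 1) - 1 := by
  have hcardconj : ∀ α β : Ω, Nat.card (stabilizer (Cfsg.Sz F m) α) =
      Nat.card (stabilizer (Cfsg.Sz F m) β) := by
    intro α β
    obtain ⟨g, rfl⟩ := MulAction.exists_smul_eq (Cfsg.Sz F m) α β
    rw [stabilizer_smul_eq_stabilizer_map_conj]
    exact (card_cj g _).symm
  obtain ⟨g₀, hg₀, hg₀2⟩ := hex
  have hnef : Nonempty (fixedBy Ω g₀) := by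
    by_contra h
    rw [not_nonempty_iff] at h
    rw [Nat.card_of_isEmpty] at hg₀2
    omega
  obtain ⟨α₀, hα₀⟩ := hnef
  by_cases h2 : 2 ∣ Nat.card (stabilizer (Cfsg.Sz F m) α₀)
  · left
    obtain ⟨t, ht⟩ := exists_prime_orderOf_dvd_card' 2 h2
    have ht' : orderOf (t : Cfsg.Sz F m) = 2 := by rw [Subgroup.orderOf_coe]; exact ht
    have ht1 : (t : Cfsg.Sz F m) ≠ 1 := by
      intro h
      rw [h, orderOf_one] at ht'
      omega
    have htt : (t : Cfsg.Sz F m) * t = 1 := by
      rw [← pow_two, ← ht', pow_orderOf_eq_one]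
    obtain ⟨K, hK, htK, -⟩ := exists_comp hm hF ht1
    rcases hK with ⟨k, rfl⟩ | hK
    · rw [mem_cj] at htK
      obtain ⟨a, b, hab⟩ := (mem_TT hF).1 htK
      have hsq : tS hF a b * tS hF a b = 1 := by
        rw [← hab]
        calc _ = k⁻¹ * ((t : Cfsg.Sz F m) * t) * k := by group
          _ = 1 := by rw [htt]; group
      rw [tS_sq, tS_eq_one_iff] at hsq
      have ha : a = 0 := by
        rcases mul_eq_zero.1 hsq.2 with h | h
        · exact (map_eq_zero _).1 h
        · exact h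
      subst ha
      have hb : b ≠ 0 := by
        rintro rfl
        rw [tS_zero] at hab
        apply ht1
        calc (t : Cfsg.Sz F m) = k * (k⁻¹ * t * k) * k⁻¹ := by group
          _ = 1 := by rw [hab]; group
      refine ⟨k⁻¹ • α₀, fixity_even hm hF hfix ⟨g₀, hg₀, hg₀2⟩ hb ?_⟩
      rw [← hab, mul_smul, mul_smul, smul_inv_smul]
      congr 1
      exact t.2
    · exfalso
      apply IsCyc.odd hm hF hK
      rw [← ht', ← Subgroup.orderOf_mk (t : Cfsg.Sz F m) htK]
      exact orderOf_dvd_natCard _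
  · right
    intro α
    rw [hcardconj α α₀]
    exact fixity_odd hm hF hfix ⟨g₀, hα₀, hg₀⟩ h2

end

end Cfsg.Agent.Suz
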