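import Cfsg.Agent.Suzuki.Bin
import Cfsg.Agent.Suzuki.LieIso

/-!
# Binary actions of the Suzuki groups: transport
-/

set_option autoImplicit false

namespace Cfsg.Agent.Suz

open Matrix MulAction

theorem mem_cen {G : Type*} [Group G] {Q : Subgroup G} {x : G} :
    x ∈ (Subgroup.center Q).map Q.subtype ↔ x ∈ Q ∧ ∀ y ∈ Q, y * x = x * y := by
  constructor
  · rintro ⟨z, hz, rfl⟩
    refine ⟨z.2, fun y hy => ?_⟩
    exact congrArg Subtype.val (Subgroup.mem_center_iff.1 hz ⟨y, hy⟩)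
  · rintro ⟨hx, h⟩
    refine ⟨⟨x, hx⟩, ?_, rfl⟩
    rw [SetLike.mem_coe, Subgroup.mem_center_iff]
    intro y
    exact Subtype.ext (h y y.2)

variable {F : Type*} [Field F] [Fintype F] [CharP F 2] {m : ℕ}

section

variable (hm : 1 ≤ m) (hF : Fintype.card F = 2 ^ (2 * m + 1))

include hm in
theorem mem_ZT_iff {x : Cfsg.Sz F m} : x ∈ ZT hF ↔ x ∈ TT hF ∧ ∀ y ∈ TT hF, y * x = x * y := by
  constructor
  · intro hx
    refine ⟨ZT_le_TT hF hx, fun y hy => ?_⟩
    obtain ⟨b, rfl⟩ := (mem_ZT hF).1 hx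
    obtain ⟨c, d, rfl⟩ := (mem_TT hF).1 hy
    rw [tS_mul, tS_mul]; simp [add_comm]
  · rintro ⟨hx, h⟩
    have h1 : (⟨x, hx⟩ : TT hF) ∈ Subgroup.center (TT hF) := by
      rw [Subgroup.mem_center_iff]
      intro y
      exact Subtype.ext (h y y.2)
    obtain ⟨c, hc⟩ := (mem_center_TT hm hF _).1 h1
    exact (mem_ZT hF).2 ⟨c, hc⟩

include hm in
theorem mem_cj_ZT_iff {k x : Cfsg.Sz F m} :
    x ∈ cj k (ZT hF) ↔ x ∈ cj k (TT hF) ∧ ∀ y ∈ cj k (TT hF), y * x = x * y := by
  rw [mem_cj, mem_ZT_iff hm hF, mem_cj]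
  constructor
  · rintro ⟨h1, h2⟩
    refine ⟨h1, fun y hy => ?_⟩
    have h3 := h2 _ (mem_cj.1 hy)
    calc y * x = k * ((k⁻¹ * y * k) * (k⁻¹ * x * k)) * k⁻¹ := by group
      _ = k * ((k⁻¹ * x * k) * (k⁻¹ * y * k)) * k⁻¹ := by rw [h3]
      _ = x * y := by group
  · rintro ⟨h1, h2⟩
    refine ⟨h1, fun y hy => ?_⟩
    have h3 := h2 (k * y * k⁻¹) ⟨y, hy, rfl⟩
    calc y * (k⁻¹ * x * k) = k⁻¹ * ((k * y * k⁻¹) * x) * k := by group
      _ = k⁻¹ * (x * (k * y * k⁻¹)) * k := by rw [h3]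
      _ = _ := by group

include hm hF in
theorem binary_transport {G' : Type*} [Group G'] [Finite G'] (e : Cfsg.Sz F m ≃* G')
    (H : Subgroup G') (hH : H ≠ ⊤) : Bin G' (G' ⧸ H) ↔
      (H = ⊥ ∨ ∃ P : Sylow 2 G', H = (Subgroup.center (P : Subgroup G')).map
        (P : Subgroup G').subtype) := by
  let A : Subgroup (Cfsg.Sz F m) := H.comap e.toMonoidHom
  have hA : ∀ x, x ∈ A ↔ e x ∈ H := fun x => Iff.rfl
  have hAtop : A ≠ ⊤ := by
    intro h
    apply hH
    rw [eq_top_iff]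
    intro x _
    obtain ⟨y, rfl⟩ := e.surjective x
    rw [← hA, h]
    trivial
  let _ : MulAction (Cfsg.Sz F m) (G' ⧸ H) := MulAction.compHom (G' ⧸ H) e.toMonoidHom
  have hsmul : ∀ (g : Cfsg.Sz F m) (x : G' ⧸ H), g • x = e g • x := fun g x => rfl
  have hbin : Bin G' (G' ⧸ H) ↔ Bin (Cfsg.Sz F m) (G' ⧸ H) := by
    constructor
    · intro h n I J hn hp
      obtain ⟨g, hg⟩ := h n I J hn (fun i j hij => by
        obtain ⟨g, h1, h2⟩ := hp i j hij
        exact ⟨e g, h1, h2⟩)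
      obtain ⟨k, rfl⟩ := e.surjective g
      exact ⟨k, hg⟩
    · intro h n I J hn hp
      obtain ⟨g, hg⟩ := h n I J hn (fun i j hij => by
        obtain ⟨g, h1, h2⟩ := hp i j hij
        obtain ⟨k, rfl⟩ := e.surjective g
        exact ⟨k, h1, h2⟩)
      exact ⟨e g, hg⟩
  have hstab : ∀ x : G' ⧸ H, ∃ k, stabilizer (Cfsg.Sz F m) x = cj k A := by
    intro x
    obtain ⟨g, rfl⟩ := QuotientGroup.mk_surjective x
    obtain ⟨k, rfl⟩ := e.surjective g
    refine ⟨k, ?_⟩
    ext y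
    rw [mem_cj, hA, mem_stabilizer_iff, hsmul]
    change (((e y * e k : G') : G' ⧸ H) = ((e k : G') : G' ⧸ H)) ↔ _
    rw [eq_comm, QuotientGroup.eq]
    simp [mul_assoc]
  have hone : stabilizer (Cfsg.Sz F m) ((1 : G') : G' ⧸ H) = A := by
    ext y
    rw [hA, mem_stabilizer_iff, hsmul]
    change (((e y * 1 : G') : G' ⧸ H) = ((1 : G') : G' ⧸ H)) ↔ _
    rw [eq_comm, QuotientGroup.eq]
    simp
  rw [hbin]
  constructor
  · intro hB
    have h1 := bin_main hm hF hB (fun x => by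
      obtain ⟨k, hk⟩ := hstab x
      rw [hk]; exact cj_ne_top hAtop) ((1 : G') : G' ⧸ H)
    rw [hone] at h1
    rcases h1 with h1 | ⟨k, hk⟩
    · left
      rw [eq_bot_iff]
      intro x hx
      obtain ⟨y, rfl⟩ := e.surjective x
      have h2 : y ∈ A := hx
      rw [h1, Subgroup.mem_bot] at h2
      rw [h2, map_one]
      exact Subgroup.one_mem _
    · right
      obtain ⟨P, hP⟩ := (sylow_iff hF hm (cj k (TT hF))).2 ⟨k, rfl⟩
      refine ⟨P.comapOfInjective e.symm.toMonoidHom e.symm.injective (by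
        intro x _
        exact ⟨e x, e.symm_apply_apply x⟩), ?_⟩
      ext x
      obtain ⟨y, rfl⟩ := e.surjective x
      rw [← hA, hk, mem_cj_ZT_iff hm hF, mem_cen, hP]
      have hmem : ∀ z : G', z ∈ (P.comapOfInjective e.symm.toMonoidHom e.symm.injective (by
        intro x _
        exact ⟨e x, e.symm_apply_apply x⟩) : Sylow 2 G') ↔ e.symm z ∈ P := fun z => Iff.rfl
      constructor
      · rintro ⟨h1, h2⟩
        refine ⟨?_, fun z hz => ?_⟩
        · change e.symm (e y) ∈ P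
          rw [e.symm_apply_apply]; exact h1
        · have h3 := h2 (e.symm z) hz
          have h4 := congrArg e h3
          rw [map_mul, map_mul, e.apply_symm_apply] at h4
          exact h4
      · rintro ⟨h1, h2⟩
        refine ⟨?_, fun z hz => ?_⟩
        · have h3 : e.symm (e y) ∈ P := h1
          rw [e.symm_apply_apply] at h3; exact h3
        · have h3 := h2 (e z) (by
            change e.symm (e z) ∈ P
            rw [e.symm_apply_apply]; exact hz)
          rw [← map_mul, ← map_mul] at h3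
          exact e.injective h3
  · rintro (h | ⟨P, hP⟩)
    · apply bin_of_bot
      intro x
      obtain ⟨k, hk⟩ := hstab x
      rw [hk, eq_bot_iff]
      intro y hy
      rw [mem_cj, hA, h, Subgroup.mem_bot, map_eq_one_iff e e.injective] at hy
      rw [Subgroup.mem_bot]
      calc y = k * (k⁻¹ * y * k) * k⁻¹ := by group
        _ = 1 := by rw [hy]; group
    · have hAZ : ∃ l, A = cj l (ZT hF) := by
        let Q : Sylow 2 (Cfsg.Sz F m) := P.comapOfInjective e.toMonoidHom e.injective (by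
          intro x _
          exact ⟨e.symm x, e.apply_symm_apply x⟩)
        have hQ : ∀ z, z ∈ (Q : Subgroup (Cfsg.Sz F m)) ↔ e z ∈ P := fun z => Iff.rfl
        obtain ⟨l, hl⟩ := exists_sylow_eq hF hm Q
        refine ⟨l, ?_⟩
        ext y
        rw [hA, hP, mem_cen, mem_cj_ZT_iff hm hF, ← hl]
        constructor
        · rintro ⟨h1, h2⟩
          refine ⟨(hQ y).2 h1, fun z hz => ?_⟩
          have h3 := h2 (e z) ((hQ z).1 hz)
          rw [← map_mul, ← map_mul] at h3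
          exact e.injective h3
        · rintro ⟨h1, h2⟩
          refine ⟨(hQ y).1 h1, fun z hz => ?_⟩
          obtain ⟨w, rfl⟩ := e.surjective z
          rw [← map_mul, ← map_mul, h2 w ((hQ w).2 hz)]
      obtain ⟨l, hl⟩ := hAZ
      apply bin_of_ZT hm hF
      intro x
      obtain ⟨k, hk⟩ := hstab x
      exact ⟨k * l, by rw [hk, hl, cj_cj]⟩

end

end Cfsg.Agent.Suz
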