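import Cfsg.Agent.Suzuki.Prod2

/-!
# Binary actions of the Suzuki groups
-/

set_option autoImplicit false

namespace Cfsg.Agent.Suz

open Matrix MulAction

section general

variable {G X : Type*} [Group G] [MulAction G X]

variable (G X) in
/-- binary actions -/
def Bin : Prop := ∀ (n : ℕ) (I J : Fin n → X), 2 ≤ n →
  (∀ i j : Fin n, i ≠ j → ∃ g : G, g • I i = J i ∧ g • I j = J j) → ∃ g : G, ∀ i, g • I i = J i

theorem Bin.fintype (h : Bin G X) {ι : Type*} [Finite ι] (hι : 2 ≤ Nat.card ι) (I J : ι → X)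
    (hp : ∀ i j : ι, i ≠ j → ∃ g : G, g • I i = J i ∧ g • I j = J j) :
    ∃ g : G, ∀ i, g • I i = J i := by
  let e : Fin (Nat.card ι) ≃ ι := (Finite.equivFin ι).symm
  obtain ⟨g, hg⟩ := h _ (I ∘ e) (J ∘ e) hι (fun i j hij => hp _ _ (fun h => hij (e.injective h)))
  refine ⟨g, fun i => ?_⟩
  have := hg (e.symm i)
  simpa using this

/-- criterion for an action not to be binary -/
theorem Bin.false_of (h : Bin G X) {x₀ x₁ p₁ p₂ p₃ : X} {y₁ y₂ y₃ : G} (h1 : y₁ • x₀ = x₁)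
    (h2 : y₂ • x₀ = x₁) (h3 : y₃ • x₀ = x₁) (hne : x₁ ≠ x₀) (f1 : y₁ • p₁ = p₁)
    (f2 : y₂ • p₂ = p₂) (f3 : y₃ • p₃ = p₃)
    (htriv : ∀ g : G, g • p₁ = p₁ → g • p₂ = p₂ → g • p₃ = p₃ → g • x₀ = x₀) : False := by
  obtain ⟨g, hg⟩ := h 4 ![x₀, p₁, p₂, p₃] ![x₁, p₁, p₂, p₃] (by norm_num) (by
    intro i j hij
    fin_cases i <;> fin_cases j
    · exact absurd rfl hij
    · exact ⟨y₁, h1, f1⟩
    · exact ⟨y₂, h2, f2⟩
    · exact ⟨y₃, h3, f3⟩
    · exact ⟨y₁, f1, h1⟩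
    · exact absurd rfl hij
    · exact ⟨1, one_smul _ _, one_smul _ _⟩
    · exact ⟨1, one_smul _ _, one_smul _ _⟩
    · exact ⟨y₂, f2, h2⟩
    · exact ⟨1, one_smul _ _, one_smul _ _⟩
    · exact absurd rfl hij
    · exact ⟨1, one_smul _ _, one_smul _ _⟩
    · exact ⟨y₃, f3, h3⟩
    · exact ⟨1, one_smul _ _, one_smul _ _⟩
    · exact ⟨1, one_smul _ _, one_smul _ _⟩
    · exact absurd rfl hij)
  have e0 : g • x₀ = x₁ := hg 0
  have e1 : g • p₁ = p₁ := hg 1
  have e2 : g • p₂ = p₂ := hg 2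
  have e3 : g • p₃ = p₃ := hg 3
  exact hne (e0.symm.trans (htriv g e1 e2 e3))

theorem ncard_fixedBy_conj [Finite X] (g s : G) :
    (fixedBy X (g * s * g⁻¹)).ncard = (fixedBy X s).ncard := by
  have h : fixedBy X (g * s * g⁻¹) = (fun x => g • x) '' fixedBy X s := by
    ext x
    constructor
    · intro hx
      refine ⟨g⁻¹ • x, ?_, smul_inv_smul g x⟩
      have hx : (g * s * g⁻¹) • x = x := hx
      rw [mul_smul, mul_smul] at hx
      change s • g⁻¹ • x = g⁻¹ • x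
      rw [eq_inv_smul_iff]; exact hx
    · rintro ⟨y, hy, rfl⟩
      have hy : s • y = y := hy
      change (g * s * g⁻¹) • g • y = g • y
      rw [mul_smul, mul_smul, inv_smul_smul, hy]
  rw [h, Set.ncard_image_of_injective _ (MulAction.injective g)]

end general

variable {F : Type*} [Field F] [Fintype F] [CharP F 2] {m : ℕ}

local notation "ϑ" => th F m

section

variable (hm : 1 ≤ m) (hF : Fintype.card F = 2 ^ (2 * m + 1))

variable {X : Type*} [MulAction (Cfsg.Sz F m) X]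

include hm hF in
/-- stabilisers in binary actions contain the centralising involutions -/
theorem bin_invol [Finite X] (hB : Bin (Cfsg.Sz F m) X) {x : X} {t z : Cfsg.Sz F m}
    (ht1 : t ≠ 1) (htt : t * t = 1) (hz1 : z ≠ 1) (hzz : z * z = 1) (hcomm : t * z = z * t)
    (htx : t • x = x) : z • x = x := by
  by_contra hzx
  have hfix : ∀ s s' : Cfsg.Sz F m, s ≠ 1 → s * s = 1 → s' ≠ 1 → s' * s' = 1 →
      (fixedBy X s).ncard = (fixedBy X s').ncard := by
    intro s s' hs1 hss hs1' hss'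
    obtain ⟨c, hc⟩ := invol_conj hm hF (one_ne_zero (α := F)) hs1 hss
    obtain ⟨c', hc'⟩ := invol_conj hm hF (one_ne_zero (α := F)) hs1' hss'
    have h1 := ncard_fixedBy_conj (X := X) c⁻¹ (tS hF 0 1)
    have h2 := ncard_fixedBy_conj (X := X) c'⁻¹ (tS hF 0 1)
    rw [inv_inv, hc] at h1
    rw [inv_inv, hc'] at h2
    rw [h1, h2]
  have hzt1 : z * t ≠ 1 := by
    intro h
    apply hzx
    have : z = t := by
      rw [mul_eq_one_iff_eq_inv] at h
      rw [h]; exact inv_eq_of_mul_eq_one_left htt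
    rw [this, htx]
  have hztt : z * t * (z * t) = 1 := by
    calc z * t * (z * t) = z * (t * z) * t := by group
      _ = (z * z) * (t * t) := by rw [hcomm]; group
      _ = 1 := by rw [hzz, htt, one_mul]
  -- the tuple
  let Λ : Set X := fixedBy X t ∪ (fixedBy X z ∪ fixedBy X (z * t))
  classical
  let J : Λ → X := fun p => if t • p.1 = p.1 then z • p.1 else p.1
  have hzxt : t • z • x = z • x := by rw [← mul_smul, hcomm, mul_smul, htx]
  have hcard : 2 ≤ Nat.card Λ := by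
    have : Nontrivial Λ := ⟨⟨x, Or.inl htx⟩, ⟨z • x, Or.inl hzxt⟩,
      fun h => hzx (congrArg Subtype.val h).symm⟩
    exact Finite.one_lt_card
  obtain ⟨s, hs⟩ := hB.fintype (ι := Λ) hcard (fun p => p.1) J (by
    have case : ∀ p q : Λ, t • p.1 = p.1 → ¬ t • q.1 = q.1 →
        ∃ g : Cfsg.Sz F m, g • p.1 = J p ∧ g • q.1 = J q := by
      intro p q hp hq
      have hJp : J p = z • p.1 := if_pos hp
      have hJq : J q = q.1 := if_neg hq
      rw [hJp, hJq]
      rcases q.2 with h | h | h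
      · exact absurd h hq
      · exact ⟨z, rfl, h⟩
      · exact ⟨z * t, by rw [mul_smul, hp], h⟩
    intro p q _
    by_cases hp : t • p.1 = p.1
    · by_cases hq : t • q.1 = q.1
      · refine ⟨z, ?_, ?_⟩
        · exact (if_pos hp).symm
        · exact (if_pos hq).symm
      · exact case p q hp hq
    · by_cases hq : t • q.1 = q.1
      · obtain ⟨g, h1, h2⟩ := case q p hq hp
        exact ⟨g, h2, h1⟩
      · refine ⟨1, ?_, ?_⟩
        · rw [one_smul]; exact (if_neg hp).symm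
        · rw [one_smul]; exact (if_neg hq).symm)
  have hst : ∀ p : X, t • p = p → s • p = z • p := by
    intro p hp
    rw [hs ⟨p, Or.inl hp⟩]
    exact if_pos hp
  have hsz : ∀ p : X, z • p = p → s • p = p := by
    intro p hp
    by_cases h : t • p = p
    · rw [hst p h, hp]
    · rw [hs ⟨p, Or.inr (Or.inl hp)⟩]
      exact if_neg h
  have hszt : ∀ p : X, (z * t) • p = p → s • p = p := by
    intro p hp
    by_cases h : t • p = p
    · rw [mul_smul, h] at hp
      rw [hst p h, hp]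
    · rw [hs ⟨p, Or.inr (Or.inr hp)⟩]
      exact if_neg h
  -- powers of s
  have hpow : ∀ (n : ℕ) (p : X), s • p = p → s ^ n • p = p := by
    intro n p hp
    induction n with
    | zero => rw [pow_zero, one_smul]
    | succ n ih => rw [pow_succ, mul_smul, hp, ih]
  have hss : ∀ p : X, t • p = p → (s * s) • p = p := by
    intro p hp
    have h1 : t • z • p = z • p := by rw [← mul_smul, hcomm, mul_smul, hp]
    rw [mul_smul, hst p hp, hst _ h1, ← mul_smul, hzz, one_smul]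
  have heven : 2 ∣ orderOf s := by
    by_contra hodd
    apply hzx
    have hcop : (orderOf s).Coprime 2 :=
      ((Nat.Prime.coprime_iff_not_dvd Nat.prime_two).2 hodd).symm
    obtain ⟨k, hk⟩ := exists_pow_eq_self_of_coprime hcop.symm
    have h1 : s • x = x := by
      rw [← hk, pow_two]
      have : ∀ n : ℕ, (s * s) ^ n • x = x := by
        intro n
        induction n with
        | zero => rw [pow_zero, one_smul]
        | succ n ih => rw [pow_succ, mul_smul, hss x htx, ih]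
      exact this k
    rw [← hst x htx, h1]
  obtain ⟨l, hl⟩ := heven
  have hl0 : 0 < l := by
    have := orderOf_pos s
    omega
  have hi1 : s ^ l ≠ 1 := by
    intro h
    have := Nat.le_of_dvd hl0 (orderOf_dvd_of_pow_eq_one h)
    omega
  have hii : s ^ l * s ^ l = 1 := by
    rw [← pow_add, ← two_mul, ← hl, pow_orderOf_eq_one]
  have e1 : fixedBy X z = fixedBy X (s ^ l) := by
    apply Set.eq_of_subset_of_ncard_le _ (hfix _ _ hi1 hii hz1 hzz).le (Set.toFinite _)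
    intro p hp
    exact hpow l p (hsz p hp)
  have e2 : fixedBy X (z * t) = fixedBy X (s ^ l) := by
    apply Set.eq_of_subset_of_ncard_le _ (hfix _ _ hi1 hii hzt1 hztt).le (Set.toFinite _)
    intro p hp
    exact hpow l p (hszt p hp)
  have e3 : fixedBy X z = fixedBy X t := by
    apply Set.eq_of_subset_of_ncard_le _ (hfix _ _ ht1 htt hz1 hzz).le (Set.toFinite _)
    intro p hp
    have h1 : p ∈ fixedBy X (z * t) := by rw [e2, ← e1]; exact hp
    have h2 : z • p = p := hp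
    have h3 : (z * t) • p = p := h1
    change t • p = p
    rw [← hcomm, mul_smul, h2] at h3
    exact h3
  apply hzx
  have : x ∈ fixedBy X z := by rw [e3]; exact htx
  exact this

theorem card_ZT : Nat.card (ZT hF) = 2 ^ (2 * m + 1) := by
  rw [← hF, ← Nat.card_eq_fintype_card]
  symm
  apply Nat.card_congr
  refine Equiv.ofBijective (fun b => ⟨tS hF 0 b, b, rfl⟩) ⟨?_, ?_⟩
  · intro a b h
    exact (tS_injective hF (congrArg Subtype.val h)).2
  · rintro ⟨_, b, rfl⟩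
    exact ⟨b, rfl⟩

include hm hF in
/-- elementary abelian 2-subgroups -/
theorem card_le_of_sq {E : Subgroup (Cfsg.Sz F m)} (hE : ∀ x ∈ E, x * x = 1) :
    Nat.card E ≤ 2 ^ (2 * m + 1) := by
  have hp : IsPGroup 2 E := by
    intro x
    refine ⟨1, Subtype.ext ?_⟩
    rw [pow_one, pow_two]
    exact hE x x.2
  obtain ⟨P, hP⟩ := hp.exists_le_sylow
  obtain ⟨k, hk⟩ := exists_sylow_eq hF hm P
  rw [← card_ZT hF, ← card_cj k (ZT hF)]
  apply Nat.le_of_dvd Nat.card_pos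
  apply Subgroup.card_dvd_of_le
  intro x hx
  rw [mem_cj]
  have h1 : x ∈ cj k (TT hF) := by rw [← hk]; exact hP hx
  apply mem_ZT_of_sq hF (mem_cj.1 h1)
  calc k⁻¹ * x * k * (k⁻¹ * x * k) = k⁻¹ * (x * x) * k := by group
    _ = 1 := by rw [hE x hx]; group

include hm in
theorem le_stab_of_ZT_le {H : Subgroup (Cfsg.Sz F m)} (hH : H ≠ ⊤) (hZ : ZT hF ≤ H) :
    H ≤ stabilizer (Cfsg.Sz F m) (oinf F m) := by
  have hq : 8 ≤ 2 ^ (2 * m + 1) := by
    calc 8 = 2 ^ 3 := by norm_num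
      _ ≤ 2 ^ (2 * m + 1) := Nat.pow_le_pow_right (by norm_num) (by omega)
  rcases alt hm hF hH with ⟨g, hg⟩ | ⟨K, hK, hHK⟩ | ⟨K, i1, i2, k, h1, h2, h3, h4, ⟨e⟩⟩
  · have h1 : tS hF 0 1 ∈ cj g (stabilizer (Cfsg.Sz F m) (oinf F m)) := hg (hZ ⟨1, rfl⟩)
    have h2 : (g⁻¹ * tS hF 0 1 * g) • oinf F m = oinf F m := mem_cj.1 h1
    rw [mul_smul, mul_smul, inv_smul_eq_iff] at h2
    have h3 := fixed_tS hF (fun h => one_ne_zero h.2) h2
    intro x hx
    have h4 : (g⁻¹ * x * g) • oinf F m = oinf F m := mem_cj.1 (hg hx)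
    rw [mul_smul, mul_smul, inv_smul_eq_iff, h3] at h4
    exact h4
  · exfalso
    obtain ⟨e, he, hc⟩ := IsCyc.exists_index hm hF hK
    have h1 := Subgroup.card_dvd_of_le (hZ.trans hHK)
    rw [card_ZT, hc] at h1
    have hcop : (2 ^ (2 * m + 1)).Coprime (Nat.card K) :=
      Nat.Coprime.pow_left _ ((Nat.Prime.coprime_iff_not_dvd Nat.prime_two).2
        (IsCyc.odd hm hF hK))
    have h2 := Nat.le_of_dvd (by rcases he with rfl | rfl <;> norm_num)
      (hcop.dvd_of_dvd_mul_right h1)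
    rcases he with rfl | rfl <;> omega
  · exfalso
    have hch := charP_two h3
    let E : Subgroup (Cfsg.Sz K k) := ((ZT hF).subgroupOf H).map e.toMonoidHom
    have hEc : Nat.card E = 2 ^ (2 * m + 1) := by
      rw [← card_ZT hF, ← Nat.card_congr (Subgroup.subgroupOfEquivOfLe hZ).toEquiv]
      exact Subgroup.card_map_of_injective e.injective
    have h5 := card_le_of_sq h1 h3 (E := E) (by
      rintro _ ⟨x, hx, rfl⟩
      have h6 : x * x = 1 := Subtype.ext (sq_of_mem_ZT hF hx)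
      change e x * e x = 1
      rw [← map_mul, h6, map_one])
    rw [hEc] at h5
    have h6 : 2 ^ (2 * k + 1) < 2 ^ (2 * m + 1) := Nat.pow_lt_pow_right (by norm_num) (by omega)
    omega

/-- the stabiliser of a translated point -/
theorem stabilizer_smul_eq_cj (k : Cfsg.Sz F m) (x : X) :
    stabilizer (Cfsg.Sz F m) (k • x) = cj k (stabilizer (Cfsg.Sz F m) x) :=
  stabilizer_smul_eq_stabilizer_map_conj k x

include hm in
/-- stabilisers in the Borel subgroup have no elements of odd order -/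
theorem bin_no_odd (hB : Bin (Cfsg.Sz F m) X) {x : X}
    (hs : stabilizer (Cfsg.Sz F m) x ≤ stabilizer (Cfsg.Sz F m) (oinf F m))
    (hZ : ZT hF ≤ stabilizer (Cfsg.Sz F m) x) {μ : Fˣ} (hμ : μ ≠ 1)
    (hμx : hS hF μ • x = x) : False := by
  have hμ2 : μ * μ ≠ 1 := fun h => hμ (unit_eq_one_of_mul_self h)
  -- the involutions
  have hy1 : ∀ ν : Fˣ, wS hF * hS hF ν ≠ 1 := by
    intro ν h
    have h1 : (wS hF * hS hF ν) • oinf F m = oinf F m := by rw [h, one_smul]
    rw [mul_smul, hS_oinf, wS_oinf] at h1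
    exact oinf_ne_opt _ _ h1.symm
  have hyy : ∀ ν : Fˣ, wS hF * hS hF ν * (wS hF * hS hF ν) = 1 := by
    intro ν
    calc wS hF * hS hF ν * (wS hF * hS hF ν) = wS hF * hS hF ν * wS hF * hS hF ν := by group
      _ = hS hF ν⁻¹ * (wS hF * wS hF) * hS hF ν := by rw [wS_mul_hS]; group
      _ = 1 := by rw [wS_mul_wS, mul_one, hS_mul, inv_mul_cancel, hS_one]
  have hfix : ∀ ν : Fˣ, ∃ c : Cfsg.Sz F m, (wS hF * hS hF ν) • c • x = c • x ∧
      (wS hF * hS hF ν) • c • oinf F m = c • oinf F m := by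
    intro ν
    obtain ⟨c, hc⟩ := invol_conj hm hF (one_ne_zero (α := F)) (hy1 ν) (hyy ν)
    have h1 : tS hF (0 : F) 1 • x = x := hZ ⟨1, rfl⟩
    refine ⟨c⁻¹, ?_, ?_⟩
    · rw [← hc, mul_smul, mul_smul, smul_inv_smul, h1]
    · rw [← hc, mul_smul, mul_smul, smul_inv_smul, tS_oinf]
  have hproj : ∀ (c g : Cfsg.Sz F m), g • c • x = c • x → g • c • oinf F m = c • oinf F m := by
    intro c g h
    have h1 : (c⁻¹ * g * c) • x = x := by rw [mul_smul, mul_smul, h, inv_smul_smul]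
    have h2 : (c⁻¹ * g * c) • oinf F m = oinf F m := hs h1
    rw [mul_smul, mul_smul, inv_smul_eq_iff] at h2
    exact h2
  have hdist : ∀ (ν ν' : Fˣ) (o : Cfsg.suzukiOvoid F m), ν ≠ ν' →
      (wS hF * hS hF ν) • o = o → (wS hF * hS hF ν') • o = o → False := by
    intro ν ν' o hne h1 h2
    have h3 : hS hF (ν⁻¹ * ν') • o = o := by
      have e : hS hF (ν⁻¹ * ν') = (wS hF * hS hF ν)⁻¹ * (wS hF * hS hF ν') := by
        rw [← hS_mul, ← hS_inv]; group
      rw [e, mul_smul, h2, inv_smul_eq_iff, h1]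
    rcases fixed_hS hm hF (fun h => hne (inv_mul_eq_one.1 h)) h3 with h | h
    · rw [h, mul_smul, hS_oinf, wS_oinf] at h1
      exact oinf_ne_opt _ _ h1.symm
    · rw [h, mul_smul, hS_opt, mul_zero, mul_zero, wS_opt_zero] at h1
      exact oinf_ne_opt _ _ h1
  obtain ⟨c₁, f1, o1⟩ := hfix 1
  obtain ⟨c₂, f2, o2⟩ := hfix μ
  obtain ⟨c₃, f3, o3⟩ := hfix (μ * μ)
  refine hB.false_of (x₀ := x) (x₁ := wS hF • x) (y₁ := wS hF * hS hF 1) (y₂ := wS hF * hS hF μ)
    (y₃ := wS hF * hS hF (μ * μ)) ?_ ?_ ?_ ?_ f1 f2 f3 ?_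
  · rw [hS_one, mul_one]
  · rw [mul_smul, hμx]
  · rw [← hS_mul, mul_smul, mul_smul, hμx, hμx]
  · intro h
    have h1 : wS hF • oinf F m = oinf F m := hs h
    rw [wS_oinf] at h1
    exact oinf_ne_opt _ _ h1.symm
  · intro g g1 g2 g3
    have : g = 1 := by
      apply eq_one_of_fix_three hF hm (a := c₁ • oinf F m) (b := c₂ • oinf F m)
        (c := c₃ • oinf F m) _ _ _ (hproj _ _ g1) (hproj _ _ g2) (hproj _ _ g3)
      · intro h; rw [h] at o1; exact hdist 1 μ _ hμ.symm o1 o2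
      · intro h
        rw [h] at o2
        exact hdist μ (μ * μ) _ (fun h => hμ (by
          have : μ * 1 = μ * μ := by rw [mul_one]; exact h
          exact (mul_left_cancel this).symm)) o2 o3
      · intro h; rw [h] at o1; exact hdist 1 (μ * μ) _ hμ2.symm o1 o3
    rw [this, one_smul]

include hm in
/-- stabilisers in the Sylow subgroup have no elements of order four -/
theorem bin_no_four (hB : Bin (Cfsg.Sz F m) X) {x : X}
    (hs : stabilizer (Cfsg.Sz F m) x ≤ TT hF)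
    (hZ : ZT hF ≤ stabilizer (Cfsg.Sz F m) x) {a b : F} (ha : a ≠ 0)
    (hx : tS hF a b • x = x) : False := by
  set h := tS hF a b with hh
  have hh2 : h * h ≠ 1 := by
    rw [hh, tS_sq]
    exact fun h => mul_ne_zero ((map_ne_zero _).2 ha) ha ((tS_eq_one_iff hF).1 h).2
  have hh4 : h * h * (h * h) = 1 := by rw [hh, tS_sq, tS_sq, mul_zero, tS_zero]
  -- a torus normalised by h
  obtain ⟨U, -, hU, -⟩ := exists_tori hm hF
  have hUc : IsCyc hF U := Or.inr hU
  obtain ⟨z, hzN, hz2, hz4⟩ : ({t | t ∈ Subgroup.normalizer (U : Set (Cfsg.Sz F m)) ∧ t * t ≠ 1 ∧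
      t * t * (t * t) = 1} : Set (Cfsg.Sz F m)).Nonempty := by
    rw [← Set.ncard_pos (Set.toFinite _)]
    have h1 := IsCyc.ncard_four hm hF hUc (torus_card hm hF hU).2
    have h2 := IsCyc.one_lt hm hF hUc
    omega
  obtain ⟨L, hL, hhL⟩ : ∃ L : Subgroup (Cfsg.Sz F m), IsTorus L ∧
      h ∈ Subgroup.normalizer (L : Set (Cfsg.Sz F m)) := by
    have conjT : ∀ g : Cfsg.Sz F m, IsTorus (cj g U) := by
      intro g
      rcases isCyc_cj hF hUc g with ⟨k, hk⟩ | h
      · exfalso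
        obtain ⟨u, hu, hu1⟩ := IsComp.exists_ne hm hF (K := U) (Or.inr hUc)
        have h1 := hU.fpf hm hF hu hu1
        have h2 : g * u * g⁻¹ ∈ cj k (HH hF) := by rw [← hk]; exact ⟨u, hu, rfl⟩
        obtain ⟨μ, hμ⟩ := (mem_HH hF).1 (mem_cj.1 h2)
        apply h1 ((g⁻¹ * k) • oinf F m)
        have h3 : u = (g⁻¹ * k) * hS hF μ * (g⁻¹ * k)⁻¹ := by rw [← hμ]; group
        rw [h3, mul_smul, inv_smul_smul, mul_smul, hS_oinf]
      · exact h
    rcases four_conj hm hF (b := b) ha hz2 hz4 with ⟨g, hg⟩ | ⟨g, hg⟩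
    · refine ⟨cj g U, conjT g, ?_⟩
      rw [normalizer_cj, mem_cj, ← hh] at *
      rw [hg]; exact hzN
    · refine ⟨cj g U, conjT g, ?_⟩
      rw [normalizer_cj, mem_cj]
      rw [← hh] at hg
      rw [hg]; exact Subgroup.inv_mem _ hzN
  have hLc : IsCyc hF L := Or.inr hL
  obtain ⟨l, hlL, hl1⟩ := IsComp.exists_ne hm hF (K := L) (Or.inr hLc)
  set t := l * (h * h) * l⁻¹ with ht
  have htN : t ∈ Subgroup.normalizer (L : Set (Cfsg.Sz F m)) :=
    Subgroup.mul_mem _ (Subgroup.mul_mem _ (Subgroup.le_normalizer hlL)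
      (Subgroup.mul_mem _ hhL hhL)) (Subgroup.inv_mem _ (Subgroup.le_normalizer hlL))
  have ht1 : t ≠ 1 := SC.conj_ne_one hh2
  have htt : t * t = 1 := by
    calc t * t = l * (h * h * (h * h)) * l⁻¹ := by rw [ht]; group
      _ = 1 := by rw [hh4]; group
  -- t = h² modulo L
  have hmod : t * (h * h)⁻¹ ∈ L := by
    have h1 : (h * h) * l⁻¹ * (h * h)⁻¹ ∈ L :=
      (Subgroup.mem_normalizer_iff.1 (Subgroup.mul_mem _ hhL hhL) _).1 (L.inv_mem hlL)
    have h2 : t * (h * h)⁻¹ = l * ((h * h) * l⁻¹ * (h * h)⁻¹) := by rw [ht]; group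
    rw [h2]; exact L.mul_mem hlL h1
  have hnot : ∀ n ∈ L, n * (h * h) ∉ L := by
    intro n hn h1
    have : h * h ∈ L := by
      have := L.mul_mem (L.inv_mem hn) h1
      rwa [inv_mul_cancel_left] at this
    exact IsCyc.invol_notMem hm hF hLc hh2 hh4 this
  -- y₂ = t h
  have hsq : (t * h) * (t * h) ∉ L := by
    have e : (t * h) * (t * h) = (t * (h * h)⁻¹) * ((h * h * h) * (t * (h * h)⁻¹) * (h * h * h)⁻¹) *
        (h * h * (h * h)) * (h * h) := by group
    rw [e, hh4, mul_one]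
    apply hnot
    exact L.mul_mem hmod ((Subgroup.mem_normalizer_iff.1
      (Subgroup.mul_mem _ (Subgroup.mul_mem _ hhL hhL) hhL) _).1 hmod)
  have hthL : t * h ∉ L := fun h1 => hsq (L.mul_mem h1 h1)
  obtain ⟨k, hk⟩ := IsCyc.two_of_notMem hm hF hLc (Subgroup.mul_mem _ htN hhL) hthL
  have hth4 := pow_four_of_mem_cj hF hk
  have hth2 : (t * h) * (t * h) ≠ 1 := fun h1 => hsq (by rw [h1]; exact L.one_mem)
  -- fixed points
  have hty : ∃ c : Cfsg.Sz F m, t • c • x = c • x := by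
    obtain ⟨c, hc⟩ := invol_conj hm hF (one_ne_zero (α := F)) ht1 htt
    have h1 : tS hF (0 : F) 1 • x = x := hZ ⟨1, rfl⟩
    exact ⟨c⁻¹, by rw [← hc, mul_smul, mul_smul, smul_inv_smul, h1]⟩
  have hthy : ∃ c : Cfsg.Sz F m, (t * h) • c • x = c • x := by
    rcases four_conj hm hF (b := b) ha hth2 hth4 with ⟨c, hc⟩ | ⟨c, hc⟩
    · refine ⟨c⁻¹, ?_⟩
      rw [← hc, mul_smul, mul_smul, smul_inv_smul]
      rw [← hh, hx]
    · refine ⟨c⁻¹, ?_⟩
      have : (t * h)⁻¹ • c⁻¹ • x = c⁻¹ • x := by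
        rw [← hc, mul_smul, mul_smul, smul_inv_smul]
        rw [← hh, hx]
      rw [inv_smul_eq_iff] at this
      exact this.symm
  obtain ⟨c₁, f1⟩ := hty
  obtain ⟨c₂, f2⟩ := hthy
  have hproj : ∀ (c g : Cfsg.Sz F m), g • c • x = c • x → g ∈ cj c (TT hF) := by
    intro c g h
    rw [mem_cj]
    apply hs
    change (c⁻¹ * g * c) • x = x
    rw [mul_smul, mul_smul, h, inv_smul_smul]
  have htx : t • x ≠ x := by
    intro h1
    have h2 : t ∈ TT hF := hs h1
    have h3 : t • oinf F m = oinf F m := TT_le_stab hF h2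
    have h4 : (h * h) • l⁻¹ • oinf F m = l⁻¹ • oinf F m := by
      rw [ht, mul_smul, mul_smul, ← eq_inv_smul_iff] at h3
      exact h3
    rw [hh, tS_sq] at h4
    have h5 := fixed_tS hF (fun h => mul_ne_zero ((map_ne_zero _).2 ha) ha h.2) h4
    exact hL.fpf hm hF (L.inv_mem hlL) (fun h => hl1 (inv_eq_one.1 h)) _ h5
  refine hB.false_of (x₀ := x) (x₁ := t • x) (y₁ := t) (y₂ := t * h) (y₃ := t) rfl ?_ rfl htx
    f1 f2 f1 ?_
  · rw [mul_smul, hx]
  · intro g g1 g2 _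
    by_contra hgx
    have hg1 : g ≠ 1 := by rintro rfl; exact hgx (one_smul _ _)
    have h1 := cj_TT_unique hF hm hg1 (hproj _ _ g1) (hproj _ _ g2)
    have h2 : t ∈ cj c₁ (TT hF) := hproj _ _ f1
    have h3 : t * h ∈ cj c₁ (TT hF) := by rw [h1]; exact hproj _ _ f2
    have h4 : h ∈ cj c₁ (TT hF) := by
      have := Subgroup.mul_mem _ (Subgroup.inv_mem _ h2) h3
      rwa [inv_mul_cancel_left] at this
    have h5 := cj_TT_unique hF hm (x := h) (fun h0 => hh2 (by rw [h0, one_mul])) h4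
      (show h ∈ cj 1 (TT hF) by rw [cj_one]; exact tS_mem_TT hF a b)
    rw [cj_one] at h5
    rw [h5] at h2
    have h3 : t • oinf F m = oinf F m := TT_le_stab hF h2
    have h4 : (h * h) • l⁻¹ • oinf F m = l⁻¹ • oinf F m := by
      rw [ht, mul_smul, mul_smul, ← eq_inv_smul_iff] at h3
      exact h3
    rw [hh, tS_sq] at h4
    have h5 := fixed_tS hF (fun h => mul_ne_zero ((map_ne_zero _).2 ha) ha h.2) h4
    exact hL.fpf hm hF (L.inv_mem hlL) (fun h => hl1 (inv_eq_one.1 h)) _ h5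

include hm in
/-- stabilisers are not nontrivial subgroups of cyclic components -/
theorem bin_no_cyc (hB : Bin (Cfsg.Sz F m) X) {x : X} {K : Subgroup (Cfsg.Sz F m)}
    (hK : IsCyc hF K) (hs : stabilizer (Cfsg.Sz F m) x ≤ K) {h : Cfsg.Sz F m} (hh1 : h ≠ 1)
    (hx : h • x = x) : False := by
  have h2 : (2 : F) = 0 := CharTwo.two_eq_zero
  have hhK : h ∈ K := hs hx
  have htr := tr_ne_zero hm hF hK hhK hh1
  obtain ⟨c, d, hc, hcd⟩ := exists_param hm hF htr
  set δ := c * ϑ c * d with hδ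
  have hθδ : ϑ δ = c ^ 2 * ϑ c * ϑ d := by rw [hδ, map_mul, map_mul, th_th hF]; ring
  have ht : tr (tS hF c δ * wS hF) = tr h := by
    rw [tr_tS_wS, hθδ, ← hcd, hδ]; ring
  have ht3 : tr (tS hF 0 (ϑ c * c) * (tS hF c δ * wS hF)) = tr h := by
    rw [← mul_assoc, tS_mul, tr_tS_wS]
    simp only [zero_add, map_zero, zero_mul, add_zero]
    rw [map_add, hθδ, map_mul, th_th hF, ← hcd, hδ]
    linear_combination c ^ 2 * ϑ c * h2
  obtain ⟨k, hk⟩ := conj_of_tr hm hF (by rw [ht]; exact htr) ht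
  set z := k * tS hF 0 (ϑ c * c) * k⁻¹ with hz
  have hzz : z * z = 1 := by
    calc z * z = k * (tS hF 0 (ϑ c * c) * tS hF 0 (ϑ c * c)) * k⁻¹ := by rw [hz]; group
      _ = 1 := by rw [tS_sq, mul_zero, tS_zero]; group
  have hz1 : z ≠ 1 := SC.conj_ne_one
    (fun h => mul_ne_zero ((map_ne_zero _).2 hc) hc ((tS_eq_one_iff hF).1 h).2)
  have hzinv : z⁻¹ = z := inv_eq_of_mul_eq_one_left hzz
  have hzh : tr (z * h) = tr h := by
    have : z * h = k * (tS hF 0 (ϑ c * c) * (tS hF c δ * wS hF)) * k⁻¹ := by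
      rw [hz, ← hk]; group
    rw [this, tr_conj, ht3]
  obtain ⟨l, hl⟩ := conj_of_tr hm hF htr hzh.symm
  -- y₁ = z h z⁻¹
  have hy1K : z * h * z⁻¹ ∉ K := by
    intro h1
    have h3 := (IsCyc.selfCent hm hF hK).mem_normalizer hhK hh1 h1
    have h4 := IsCyc.invert hm hF hK h3 hz1 hzz hhK
    have h5 : (z * h) * (z * h) = 1 := by
      calc (z * h) * (z * h) = (z * h * z⁻¹) * (z * z) * h := by group
        _ = 1 := by rw [h4, hzz]; group
    have h6 := tr_sq (z * h)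
    rw [h5, tr_one, hzh] at h6
    exact htr (by
      have := h6.symm
      exact pow_eq_zero_iff (two_ne_zero) |>.1 this)
  have hy2 : z * h * z⁻¹ * h = l * (h * h) * l⁻¹ := by
    calc z * h * z⁻¹ * h = (z * h) * (z * h) := by rw [hzinv]; group
      _ = (l * h * l⁻¹) * (l * h * l⁻¹) := by rw [hl]
      _ = _ := by group
  refine hB.false_of (x₀ := x) (x₁ := (z * h * z⁻¹) • x) (p₁ := z • x) (p₂ := l • x) (p₃ := z • x)
    (y₁ := z * h * z⁻¹) (y₂ := z * h * z⁻¹ * h) (y₃ := z * h * z⁻¹) rfl ?_ rfl ?_ ?_ ?_ ?_ ?_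
  · rw [mul_smul (z * h * z⁻¹), hx]
  · intro h1
    exact hy1K (hs h1)
  · rw [mul_smul, inv_smul_smul, mul_smul, hx]
  · rw [hy2, mul_smul, inv_smul_smul, mul_smul, mul_smul, hx, hx]
  · rw [mul_smul, inv_smul_smul, mul_smul, hx]
  · intro g g1 g2 _
    by_contra hgx
    have hg1 : g ≠ 1 := by rintro rfl; exact hgx (one_smul _ _)
    have hproj : ∀ (c g : Cfsg.Sz F m), g • c • x = c • x → g ∈ cj c K := by
      intro c g h
      rw [mem_cj]
      apply hs
      change (c⁻¹ * g * c) • x = x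
      rw [mul_smul, mul_smul, h, inv_smul_smul]
    have e1 : cj z K = cj l K := (IsCyc.selfCent hm hF (isCyc_cj hF hK z)).eq_of_mem
      (IsCyc.selfCent hm hF (isCyc_cj hF hK l)) hg1 (hproj _ _ g1) (hproj _ _ g2)
    have e2 : z * h * z⁻¹ ∈ cj z K := ⟨h, hhK, rfl⟩
    have e3 : z * h * z⁻¹ * h ∈ cj z K := by
      rw [e1, hy2]
      exact ⟨h * h, K.mul_mem hhK hhK, rfl⟩
    have e4 : h ∈ cj z K := by
      have := Subgroup.mul_mem _ (Subgroup.inv_mem _ e2) e3
      rwa [inv_mul_cancel_left] at this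
    have e5 : cj z K = K := (IsCyc.selfCent hm hF (isCyc_cj hF hK z)).eq_of_mem
      (IsCyc.selfCent hm hF hK) hh1 e4 hhK
    rw [e5] at e2
    exact hy1K e2

include hm hF in
theorem bin_main [Finite X] (hB : Bin (Cfsg.Sz F m) X)
    (hX : ∀ x : X, stabilizer (Cfsg.Sz F m) x ≠ ⊤) (x : X) :
    stabilizer (Cfsg.Sz F m) x = ⊥ ∨ ∃ k, stabilizer (Cfsg.Sz F m) x = cj k (ZT hF) := by
  by_cases h0 : stabilizer (Cfsg.Sz F m) x = ⊥
  · exact Or.inl h0
  right
  by_cases h2 : ∀ g ∈ stabilizer (Cfsg.Sz F m) x, g ≠ 1 → ¬ ∃ k, g ∈ cj k (TT hF)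
  · exfalso
    obtain ⟨K, hK, hSK⟩ := sub_odd hm hF h0 h2
    obtain ⟨h, hh, hh1⟩ : ∃ h ∈ stabilizer (Cfsg.Sz F m) x, h ≠ 1 := by
      by_contra hcon
      push Not at hcon
      exact h0 ((Subgroup.eq_bot_iff_forall _).2 hcon)
    exact bin_no_cyc hm hF hB hK hSK hh1 hh
  push Not at h2
  obtain ⟨g, hgx, hg1, k, hk⟩ := h2
  have hS' : stabilizer (Cfsg.Sz F m) (k⁻¹ • x) = cj k⁻¹ (stabilizer (Cfsg.Sz F m) x) :=
    stabilizer_smul_eq_cj _ _
  have hT : ∃ u ∈ stabilizer (Cfsg.Sz F m) (k⁻¹ • x) ⊓ TT hF, u ≠ 1 := by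
    refine ⟨k⁻¹ * g * k, ⟨?_, mem_cj.1 hk⟩, ?_⟩
    · rw [hS']
      exact ⟨g, hgx, by simp⟩
    · intro h
      apply hg1
      calc g = k * (k⁻¹ * g * k) * k⁻¹ := by group
        _ = 1 := by rw [h]; group
  obtain ⟨u, ⟨hux, huZ⟩, hu1⟩ := inter_ZT_ne hF hT
  obtain ⟨b, hb⟩ := (mem_ZT hF).1 huZ
  have hZ : ZT hF ≤ stabilizer (Cfsg.Sz F m) (k⁻¹ • x) := by
    rintro _ ⟨c, rfl⟩
    by_cases hc : tS hF 0 c = 1
    · rw [hc]; exact Subgroup.one_mem _
    · exact bin_invol hm hF hB hu1 (sq_of_mem_ZT hF huZ) hc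
        (by rw [tS_sq, mul_zero, tS_zero]) (by
          rw [hb, tS_mul, tS_mul]; simp [add_comm]) hux
  have hs := le_stab_of_ZT_le hm hF (hX _) hZ
  have hsT : stabilizer (Cfsg.Sz F m) (k⁻¹ • x) ≤ TT hF := by
    intro g hg
    obtain ⟨a, b, μ, hab⟩ := fix_inf hF hm (hs hg)
    by_cases hμ : μ = 1
    · rw [hab, hμ, hS_one, mul_one]
      exact tS_mem_TT hF a b
    · exfalso
      obtain ⟨x', y', hxy⟩ := exists_conj_hS hF a b hμ
      have htT : (tS hF x' y')⁻¹ ∈ stabilizer (Cfsg.Sz F m) (oinf F m) :=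
        Subgroup.inv_mem _ (tS_oinf hF x' y')
      apply bin_no_odd hm hF hB (x := (tS hF x' y')⁻¹ • k⁻¹ • x) _ _ hμ
      · rw [eq_inv_smul_iff, smul_smul, smul_smul, ← hxy, ← hab]
        exact hg
      · rw [stabilizer_smul_eq_cj]
        rw [← cj_eq_of_mem_normalizer (Subgroup.le_normalizer htT)]
        exact cj_mono _ hs
      · rw [stabilizer_smul_eq_cj]
        intro z hz
        rw [mem_cj, inv_inv]
        apply hZ
        have := conj_mem_ZT hm hF (g := tS hF x' y') (tS_oinf hF x' y') hz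
        exact this
  have hsZ : stabilizer (Cfsg.Sz F m) (k⁻¹ • x) ≤ ZT hF := by
    intro g hg
    obtain ⟨a, b, rfl⟩ := (mem_TT hF).1 (hsT hg)
    by_cases ha : a = 0
    · rw [ha]; exact ⟨b, rfl⟩
    · exact (bin_no_four hm hF hB hsT hZ ha hg).elim
  refine ⟨k, ?_⟩
  rw [← le_antisymm hsZ hZ, ← stabilizer_smul_eq_cj, smul_inv_smul]

omit [CharP F 2] [Fintype F] in
theorem bin_of_triple (h : ∀ (p q r : X) (a b : Cfsg.Sz F m), a ∈ stabilizer (Cfsg.Sz F m) p →
    b ∈ stabilizer (Cfsg.Sz F m) q → b⁻¹ * a ∈ stabilizer (Cfsg.Sz F m) r →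
    stabilizer (Cfsg.Sz F m) p ≠ stabilizer (Cfsg.Sz F m) q →
    a ∈ stabilizer (Cfsg.Sz F m) r) : Bin (Cfsg.Sz F m) X := by
  intro n I J hn hp
  let i₀ : Fin n := ⟨0, by omega⟩
  let i₁ : Fin n := ⟨1, by omega⟩
  have h01 : i₀ ≠ i₁ := by
    intro h
    have := congrArg Fin.val h
    simp [i₀, i₁] at this
  by_cases hall : ∀ i, stabilizer (Cfsg.Sz F m) (I i) = stabilizer (Cfsg.Sz F m) (I i₀)
  · obtain ⟨g, hg0, -⟩ := hp i₀ i₁ h01
    refine ⟨g, fun i => ?_⟩
    by_cases hi : i = i₀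
    · rw [hi, hg0]
    · obtain ⟨g', h0, h1⟩ := hp i₀ i (Ne.symm hi)
      have h2 : g⁻¹ * g' ∈ stabilizer (Cfsg.Sz F m) (I i) := by
        rw [hall]
        change (g⁻¹ * g') • I i₀ = I i₀
        rw [mul_smul, h0, ← hg0, inv_smul_smul]
      have h3 : (g⁻¹ * g') • I i = I i := h2
      rw [mul_smul, h1, inv_smul_eq_iff] at h3
      exact h3.symm
  · push Not at hall
    obtain ⟨j, hj⟩ := hall
    have hj0 : i₀ ≠ j := by rintro rfl; exact hj rfl
    obtain ⟨g, hg0, hgj⟩ := hp i₀ j hj0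
    refine ⟨g, fun i => ?_⟩
    by_cases hi : i = i₀
    · rw [hi, hg0]
    by_cases hij : i = j
    · rw [hij, hgj]
    obtain ⟨g', h0, h1⟩ := hp i₀ i (Ne.symm hi)
    obtain ⟨g'', h2, h3⟩ := hp j i (Ne.symm hij)
    have h4 : g⁻¹ * g' ∈ stabilizer (Cfsg.Sz F m) (I i) := by
      apply h (I i₀) (I j) (I i) (g⁻¹ * g') (g⁻¹ * g'') _ _ _ (Ne.symm hj)
      · change (g⁻¹ * g') • I i₀ = I i₀
        rw [mul_smul, h0, ← hg0, inv_smul_smul]
      · change (g⁻¹ * g'') • I j = I j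
        rw [mul_smul, h2, ← hgj, inv_smul_smul]
      · change ((g⁻¹ * g'')⁻¹ * (g⁻¹ * g')) • I i = I i
        rw [mul_smul, inv_smul_eq_iff, mul_smul, mul_smul, h1, h3]
    have h5 : (g⁻¹ * g') • I i = I i := h4
    rw [mul_smul, h1, inv_smul_eq_iff] at h5
    exact h5.symm

theorem bin_of_bot (h : ∀ x : X, stabilizer (Cfsg.Sz F m) x = ⊥) : Bin (Cfsg.Sz F m) X := by
  apply bin_of_triple
  intro p q r a b ha _ _ _
  rw [h] at ha
  rw [(Subgroup.mem_bot).1 ha]
  exact Subgroup.one_mem _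

include hm in
theorem bin_of_ZT (h : ∀ x : X, ∃ k, stabilizer (Cfsg.Sz F m) x = cj k (ZT hF)) :
    Bin (Cfsg.Sz F m) X := by
  apply bin_of_triple
  intro p q r a b ha hb hab hpq
  obtain ⟨k, hk⟩ := h p
  obtain ⟨l, hl⟩ := h q
  obtain ⟨j, hj⟩ := h r
  have hsq : ∀ (k x : Cfsg.Sz F m), x ∈ cj k (ZT hF) → x * x = 1 := by
    intro k x hx
    have := sq_of_mem_ZT hF (mem_cj.1 hx)
    calc x * x = k * (k⁻¹ * x * k * (k⁻¹ * x * k)) * k⁻¹ := by group
      _ = 1 := by rw [this]; group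
  have hle : ∀ k, cj k (ZT hF) ≤ cj k (TT hF) := fun k => cj_mono k (ZT_le_TT hF)
  rw [hk] at ha hpq
  rw [hl] at hb hpq
  rw [hj] at hab
  rw [hj]
  have haa := hsq _ _ ha
  have hbb := hsq _ _ hb
  have hcc := hsq _ _ hab
  have hainv : a⁻¹ = a := inv_eq_of_mul_eq_one_left haa
  have hbinv : b⁻¹ = b := inv_eq_of_mul_eq_one_left hbb
  by_cases ha1 : a = 1
  · rw [ha1]; exact Subgroup.one_mem _
  by_cases hb1 : b = 1
  · rw [hb1, inv_one, one_mul] at hab
    exact hab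
  exfalso
  apply hpq
  have hcomm : b * a = a * b := by
    rw [hbinv] at hcc
    calc b * a = (b * a) * (a * b * (a * b)⁻¹) := by group
      _ = b * (a * a) * b * (a * b)⁻¹ := by group
      _ = (a * b)⁻¹ := by rw [haa, mul_one, hbb, one_mul]
      _ = b⁻¹ * a⁻¹ := by rw [_root_.mul_inv_rev]
      _ = b * a := by rw [hainv, hbinv]
      _ = (b * a) * (b * a) * (a⁻¹ * b⁻¹) := by group
      _ = a * b := by rw [hcc, one_mul, hainv, hbinv]
  have h1 : b ∈ cj k (TT hF) := by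
    have hK : IsComp hF (cj k (TT hF)) := Or.inl ⟨k, rfl⟩
    apply IsComp.centralizer_le hm hF hK ha1 (hle k ha)
    rw [Subgroup.mem_centralizer_singleton_iff]
    exact hcomm
  have h2 := cj_TT_unique hF hm hb1 h1 (hle l hb)
  ext x
  constructor
  · intro hx
    have hx2 : x ∈ cj l (TT hF) := by rw [← h2]; exact hle k hx
    rw [mem_cj]
    apply mem_ZT_of_sq hF (mem_cj.1 hx2)
    calc l⁻¹ * x * l * (l⁻¹ * x * l) = l⁻¹ * (x * x) * l := by group
      _ = 1 := by rw [hsq _ _ hx]; group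
  · intro hx
    have hx2 : x ∈ cj k (TT hF) := by rw [h2]; exact hle l hx
    rw [mem_cj]
    apply mem_ZT_of_sq hF (mem_cj.1 hx2)
    calc k⁻¹ * x * k * (k⁻¹ * x * k) = k⁻¹ * (x * x) * k := by group
      _ = 1 := by rw [hsq _ _ hx]; group

end

end Cfsg.Agent.Suz
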